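import Cfsg.Agent.Lib.Classical.UnitaryTwoGen.Main

/-!
Generation of `SU_3` by two conjugate regular unipotents: coordinates in a frame `e, f, y` of a
hyperbolic pair and a unit vector, and criteria for a subgroup to be everything.
-/

set_option autoImplicit false

namespace Cfsg.Agent.Lib.Classical.SUThreeGen

open Matrix Cfsg.Agent.Lib.AutPSU Cfsg.Agent.Lib.Forms UnitaryTwoGen

universe u

variable {F : Type u} [Field F] {q : ℕ}

/-- A hyperbolic pair and a unit vector orthogonal to it, spanning the space. -/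
structure Frame (q : ℕ) (e f y : Fin 3 → F) : Prop where
  pair : Pair q e f
  inW : InW q e f y
  one : hm q y y = 1
  span : ∀ x, InW q e f x → x = hm q x y • y

/-- The vector with the given coordinates. -/
def V (e f y : Fin 3 → F) (a b d : F) : Fin 3 → F := a • e + b • f + d • y

variable [Fintype F] (hF : Fintype.card F = q ^ 2) {e f y : Fin 3 → F} (HR : Frame q e f y)
include hF HR

theorem hm_V (a b d a' b' d' : F) :
    hm q (V e f y a b d) (V e f y a' b' d') = a * b' ^ q + b * a' ^ q + d * d' ^ q := by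
  simp only [V, hm_add_left, hm_add_right hF, hm_smul_left', hm_smul_right, HR.pair.ee, HR.pair.ef,
    HR.pair.fe, HR.pair.ff, HR.one, HR.inW.1, HR.inW.2, (HR.inW.swap hF).1, (HR.inW.swap hF).2]
  ring

theorem expand (z : Fin 3 → F) : z = V e f y (hm q z f) (hm q z e) (hm q z y) := by
  conv_lhs => rw [decomp (q := q) e f z, HR.span _ (proj_mem HR.pair z)]
  have h : hm q (proj q e f z) y = hm q z y := by
    rw [proj, hm_sub_left, hm_sub_left, hm_smul_left', hm_smul_left', (HR.inW.swap hF).1,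
      (HR.inW.swap hF).2]
    ring
  rw [h, V]

theorem U_V {b d : F} (hd : Cond q (b • y) d) (x0 x1 x2 : F) :
    mat (U hF e (b • y) d) *ᵥ V e f y x0 x1 x2 = V e f y (x0 + d * x1 - b ^ q * x2) x1 (x2 + b * x1) := by
  have hW : InW q e f (b • y) := HR.inW.smul _
  rw [V, mulVec_add, mulVec_add, mulVec_smul, mulVec_smul, mulVec_smul, U_apply_e hF HR.pair hW hd,
    U_apply_f hF HR.pair hW hd, U_apply_w hF HR.pair hW hd HR.inW, hm_smul_right, HR.one, V]
  module

theorem U_sq_ne {b d : F} (hb : b ≠ 0) (hd : Cond q (b • y) d) :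
    (mat (U hF e (b • y) d) - 1) ^ 2 ≠ 0 := by
  intro h
  have h' := congrArg (fun M => M *ᵥ f) h
  simp only [pow_two, ← mulVec_mulVec, sub_mulVec, one_mulVec, zero_mulVec] at h'
  have hf : f = V e f y 0 1 0 := by simp [V]
  rw [hf, U_V hF HR hd, mulVec_sub, U_V hF HR hd] at h'
  have := congrArg (fun z => hm q z f) h'
  rw [U_V hF HR hd] at this
  simp [hm_sub_left, hm_add_left, V, hm_smul_left', hm_zero_left, HR.pair.ef, HR.pair.ff, HR.inW.2] at this
  exact mul_ne_zero (pow_ne_zero q hb) hb (by linear_combination -this)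

/-- An element with the given images of the frame. -/
theorem exists_elt {a0 a1 a2 b0 b1 b2 d0 d1 d2 : F}
    (hdet : !![a0, b0, d0; a1, b1, d1; a2, b2, d2].det = 1)
    (hee : a0 * a1 ^ q + a1 * a0 ^ q + a2 * a2 ^ q = 0)
    (hff : b0 * b1 ^ q + b1 * b0 ^ q + b2 * b2 ^ q = 0)
    (hyy : d0 * d1 ^ q + d1 * d0 ^ q + d2 * d2 ^ q = 1)
    (hef : a0 * b1 ^ q + a1 * b0 ^ q + a2 * b2 ^ q = 1)
    (hey : a0 * d1 ^ q + a1 * d0 ^ q + a2 * d2 ^ q = 0)
    (hfy : b0 * d1 ^ q + b1 * d0 ^ q + b2 * d2 ^ q = 0) :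
    ∃ s : S 3 F q, ∀ x0 x1 x2, mat s *ᵥ V e f y x0 x1 x2 =
      V e f y (a0 * x0 + b0 * x1 + d0 * x2) (a1 * x0 + b1 * x1 + d1 * x2) (a2 * x0 + b2 * x1 + d2 * x2) := by
  set P : Matrix (Fin 3) (Fin 3) F := (Matrix.of ![e, f, y])ᵀ with hP
  set L : Matrix (Fin 3) (Fin 3) F := Matrix.of ![fun i => f i ^ q, fun i => e i ^ q, fun i => y i ^ q]
  set A := !![a0, b0, d0; a1, b1, d1; a2, b2, d2]
  have hPv : ∀ x0 x1 x2 : F, P *ᵥ ![x0, x1, x2] = V e f y x0 x1 x2 := fun x0 x1 x2 => by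
    funext i
    simp [hP, mulVec, dotProduct, Fin.sum_univ_three, V]
    ring
  have hLv : ∀ z, L *ᵥ z = ![hm q z f, hm q z e, hm q z y] := fun z => by
    funext i
    fin_cases i <;> simp [L, mulVec, dotProduct, hm, Cfsg.hermForm, mul_comm]
  have hAv : ∀ x0 x1 x2 : F, A *ᵥ ![x0, x1, x2] =
      ![a0 * x0 + b0 * x1 + d0 * x2, a1 * x0 + b1 * x1 + d1 * x2, a2 * x0 + b2 * x1 + d2 * x2] :=
    fun x0 x1 x2 => by
      funext i
      fin_cases i <;> simp [A, mulVec, dotProduct, Fin.sum_univ_three]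
  have hPL : P * L = 1 := by
    refine Matrix.ext_iff_mulVec.2 fun z => ?_
    rw [one_mulVec, ← mulVec_mulVec, hLv, hPv, ← expand hF HR z]
  have hM : ∀ z, (P * A * L) *ᵥ z = V e f y
      (a0 * hm q z f + b0 * hm q z e + d0 * hm q z y) (a1 * hm q z f + b1 * hm q z e + d1 * hm q z y)
      (a2 * hm q z f + b2 * hm q z e + d2 * hm q z y) := fun z => by
    rw [← mulVec_mulVec, ← mulVec_mulVec, hLv, hAv, hPv]
  have hd : (P * A * L).det = 1 := by
    rw [det_mul_right_comm, hPL, one_mul, hdet]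
  have hiso : ∀ z w, hm q ((P * A * L) *ᵥ z) ((P * A * L) *ᵥ w) = hm q z w := fun z w => by
    rw [hM, hM, hm_V hF HR]
    conv_rhs => rw [expand hF HR z, expand hF HR w, hm_V hF HR]
    have c1 := congrArg (· ^ q) hef
    have c2 := congrArg (· ^ q) hey
    have c3 := congrArg (· ^ q) hfy
    simp only [Herm.conj_add hF, mul_pow, Herm.conj_conj hF, one_pow, Herm.conj_zero hF] at c1 c2 c3 ⊢
    linear_combination (hm q z f * hm q w f ^ q) * hee + (hm q z e * hm q w e ^ q) * hff +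
      (hm q z y * hm q w y ^ q) * hyy + (hm q z f * hm q w e ^ q) * hef + (hm q z e * hm q w f ^ q) * c1 +
      (hm q z f * hm q w y ^ q) * hey + (hm q z y * hm q w f ^ q) * c2 +
      (hm q z e * hm q w y ^ q) * hfy + (hm q z y * hm q w e ^ q) * c3
  refine ⟨⟨⟨_, hd⟩, hiso⟩, fun x0 x1 x2 => ?_⟩
  show (P * A * L) *ᵥ _ = _
  rw [hM]
  simp [V, hm_add_left, hm_smul_left', HR.pair.ee, HR.pair.ef, HR.pair.fe, HR.pair.ff, HR.one,
    HR.inW.1, HR.inW.2, (HR.inW.swap hF).1, (HR.inW.swap hF).2]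

/-- Elements with the same images of the frame are equal. -/
theorem frame_ext {s t : S 3 F q} (he : mat s *ᵥ V e f y 1 0 0 = mat t *ᵥ V e f y 1 0 0)
    (hf : mat s *ᵥ V e f y 0 1 0 = mat t *ᵥ V e f y 0 1 0)
    (hy : mat s *ᵥ V e f y 0 0 1 = mat t *ᵥ V e f y 0 0 1) : s = t := by
  refine vec_ext fun x => ?_
  simp [V] at he hf hy
  rw [expand hF HR x, V]
  simp only [mulVec_add, mulVec_smul, he, hf, hy]

/-- An element fixing the line of `e` multiplies the W-parts of a subgroup containing it. -/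
theorem mul_stable {H : Subgroup (S 3 F q)} {w : S 3 F q} (hw : w ∈ H) {t σ ρ : F}
    (hwe : mat w *ᵥ V e f y 1 0 0 = V e f y t 0 0) (hwy : mat w *ᵥ V e f y 0 0 1 = V e f y σ 0 ρ)
    {a : F} (ha : a • y ∈ M hF HR.pair H) : ((t ^ q * ρ) * a) • y ∈ M hF HR.pair H := by
  simp only [V, zero_smul, add_zero, zero_add, one_smul] at hwe hwy
  obtain ⟨hW, c, hc, hH⟩ := ha
  have hd : Cond q (((t ^ q * ρ) * a) • y) (c * t * t ^ q + t ^ q * (a * σ) - t * (a * σ) ^ q) := by
    have hρ : ρ * ρ ^ q = 1 := by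
      have := iso w y y
      rw [hwy, HR.one] at this
      simpa [hm_add_left, hm_add_right hF, hm_smul_left', hm_smul_right, HR.pair.ee,
        (HR.inW.swap hF).1, HR.inW.1, HR.one, mul_comm] using this
    unfold Cond at hc ⊢
    rw [hm_smul_left', hm_smul_right, HR.one, mul_one] at hc
    simp only [hm_smul_left', hm_smul_right, HR.one, mul_pow, Herm.conj_add hF, Herm.conj_sub hF,
      Herm.conj_conj hF]
    linear_combination (t * t ^ q) * hc + (t * t ^ q * a * a ^ q) * hρ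
  refine ⟨HR.inW.smul _, _, hd, ?_⟩
  have h := mul_mem (mul_mem hw hH) (inv_mem hw)
  have e1 : w * U hF e (a • y) c * w⁻¹ =
      U hF e (((t ^ q * ρ) * a) • y) (c * t * t ^ q + t ^ q * (a * σ) - t * (a * σ) ^ q) := by
    rw [mul_inv_eq_iff_eq_mul]
    refine vec_ext fun z => ?_
    rw [mat_mul, mat_mul, ← mulVec_mulVec, ← mulVec_mulVec, U_mulVec hF HR.pair hW hc,
      U_mulVec hF HR.pair (HR.inW.smul _) hd]
    have k1 : hm q (mat w *ᵥ z) e * t ^ q = hm q z e := by
      have := iso w z e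
      rw [hwe, hm_smul_right] at this
      linear_combination this
    have k2 : σ ^ q * hm q (mat w *ᵥ z) e + ρ ^ q * hm q (mat w *ᵥ z) y = hm q z y := by
      have := iso w z y
      rw [hwy, hm_add_right hF, hm_smul_right, hm_smul_right] at this
      exact this
    simp only [mulVec_add, mulVec_smul, hwe, hwy, hm_smul_right, ← k1, ← k2, mul_pow,
      Herm.conj_conj hF]
    module
  rwa [e1] at h

/-- A subgroup containing all W-parts and moving `e` off its line is everything. -/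
theorem top_of_move (hq : 3 ≤ q) {H : Subgroup (S 3 F q)} {a : F} (ha0 : a ≠ 0)
    (ha : a • y ∈ M hF HR.pair H) {k : F}
    (hk : ∀ b : F, b • y ∈ M hF HR.pair H → (k * b) • y ∈ M hF HR.pair H)
    (hgen : ∀ K : Subring F, k ∈ K → K = ⊤) {h : S 3 F q} (hh : h ∈ H) {α β γ : F}
    (hhe : mat h *ᵥ V e f y 1 0 0 = V e f y α β γ) (hβ : β ≠ 0) : H = ⊤ := by
  have hline : ∀ b : F, b • y ∈ M hF HR.pair H := line_of_gen ha0 ha hk fun N h1 hN =>
    QuadOmega.TwoGen.eq_top_of_mul_stable N h1 hN hgen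
  have hM : ∀ x, InW q e f x → x ∈ M hF HR.pair H := fun x hx => by
    rw [HR.span x hx]; exact hline _
  have hn : α * β ^ q + β * α ^ q + γ * γ ^ q = 0 := by
    have := iso h (V e f y 1 0 0) (V e f y 1 0 0)
    rw [hhe, hm_V hF HR, hm_V hF HR] at this
    simpa [Herm.conj_zero hF] using this
  have hd : Cond q ((γ / β) • y) (α / β) := by
    unfold Cond
    rw [hm_smul_left', hm_smul_right, HR.one, div_pow, div_pow]
    field_simp
    linear_combination hn
  refine top_of_all hF HR.pair (Or.inl hq) HR.inW HR.one hM (HR.inW.smul (γ / β)) hd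
    (g := (U hF e ((γ / β) • y) (α / β))⁻¹ * h) (by rwa [mul_inv_cancel_left]) hβ ?_
  have hf : β • f = V e f y 0 β 0 := by simp [V]
  have he : mat h *ᵥ e = V e f y α β γ := by
    rw [← hhe]; simp [V]
  rw [mat_mul, ← mulVec_mulVec, he, hf]
  have := mulVec_inv_cancel (U hF e ((γ / β) • y) (α / β)) (V e f y 0 β 0)
  rw [U_V hF HR hd, show α / β * β = α from div_mul_cancel₀ _ hβ, show γ / β * β = γ from div_mul_cancel₀ _ hβ,
    mul_zero, sub_zero, zero_add, zero_add] at this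
  exact this

omit hF HR in
theorem exists_frame' (hF : Fintype.card F = q ^ 2) : ∃ e f y : Fin 3 → F, Frame q e f y := by
  obtain ⟨e, f, HP⟩ := exists_pair hF (n := 3) (by norm_num)
  obtain ⟨y, hy, hy1⟩ := exists_W_unit hF HP (by norm_num)
  refine ⟨e, f, y, HP, hy, hy1, fun x hx => ?_⟩
  have hy0 : y ≠ 0 := fun h => by rw [h, hm_zero_left] at hy1; exact zero_ne_one hy1
  obtain ⟨a, rfl⟩ := W_line hF HP rfl hy hy0 hx
  rw [hm_smul_left', hy1, mul_one]

end Cfsg.Agent.Lib.Classical.SUThreeGen
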