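import Cfsg.Agent.Lib.Classical.SUThreeGen.Special

/-!
`SU_3(q)`, `q ≥ 3`, is generated by two conjugate regular unipotents.
-/

set_option autoImplicit false

namespace Cfsg.Agent.Lib.Classical.SUThreeGen

open Matrix Cfsg.Agent.Lib.AutPSU Cfsg.Agent.Lib.Forms UnitaryTwoGen

universe u

variable {F : Type u} [Field F] [Fintype F] {q : ℕ} {e f y : Fin 3 → F}

omit [Fintype F] in
theorem V_congr {a b d a' b' d' : F} (h1 : a = a') (h2 : b = b') (h3 : d = d') :
    V e f y a b d = V e f y a' b' d' := by rw [h1, h2, h3]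

/-- The scalars: `μ` with nonzero trace such that `(μ ^ q / μ) ^ 3` lies in no proper subring. -/
theorem scalars (hF : Fintype.card F = q ^ 2) (hq : 3 ≤ q) (h5 : q ≠ 5) (h8 : q ≠ 8) :
    ∃ μ a : F, μ ≠ 0 ∧ a ≠ 0 ∧ μ + μ ^ q ≠ 0 ∧ a * a ^ q * (μ * μ ^ q) = -(μ + μ ^ q) ^ 3 ∧
      ∀ K : Subring F, (μ ^ q / μ) ^ 3 ∈ K → K = ⊤ := by
  obtain ⟨ω, hω, -⟩ := exists_prim hF
  have hμ : (ω : F) ≠ 0 := ω.ne_zero
  have hS : (ω : F) + (ω : F) ^ q ≠ 0 := by
    intro h
    have h1 : (ω : F) ^ q = -(ω : F) := by linear_combination h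
    have h2 : (ω : F) ^ (2 * (q - 1)) = 1 := by
      have h3 : (ω : F) ^ (q - 1) = -1 := mul_right_cancel₀ hμ (by
        rw [← pow_succ, show q - 1 + 1 = q by omega, h1]; ring)
      rw [mul_comm, pow_mul, h3]; ring
    have h4 : ω ^ (2 * (q - 1)) = 1 := Units.ext (by rw [Units.val_pow_eq_pow_val, h2, Units.val_one])
    rw [← orderOf_dvd_iff_pow_eq_one, hω] at h4
    have := Nat.le_of_dvd (by omega) h4
    have : 2 * (q - 1) < (q + 1) * (q - 1) := Nat.mul_lt_mul_of_pos_right (by omega) (by omega)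
    omega
  set S := (ω : F) + (ω : F) ^ q
  have hN : (ω : F) * (ω : F) ^ q ≠ 0 := mul_ne_zero hμ (pow_ne_zero _ hμ)
  have hc : -S ^ 3 / ((ω : F) * (ω : F) ^ q) ≠ 0 := div_ne_zero (neg_ne_zero.2 (pow_ne_zero _ hS)) hN
  have hfix : (-S ^ 3 / ((ω : F) * (ω : F) ^ q)) ^ q = -S ^ 3 / ((ω : F) * (ω : F) ^ q) := by
    rw [div_pow, Herm.conj_neg hF, ← pow_mul, mul_comm 3 q, pow_mul, norm_fixed' hF, Herm.conj_add hF,
      Herm.conj_conj hF, add_comm ((ω : F) ^ q)]
  obtain ⟨a, ha0, ha⟩ := Herm.exists_norm hF hc hfix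
  refine ⟨ω, a, hμ, ha0, hS, ?_, fun K h => cube_gen hF hω hq h5 h8 K ?_⟩
  · rw [show a * a ^ q = -S ^ 3 / ((ω : F) * (ω : F) ^ q) by rw [← ha]; ring, div_mul_cancel₀ _ hN]
  · convert h using 1
    rw [Units.val_pow_eq_pow_val, Units.val_pow_eq_pow_val]
    congr 1
    rw [eq_div_iff hμ, ← pow_succ, show q - 1 + 1 = q by omega]

/-- The general case. -/
theorem general (hF : Fintype.card F = q ^ 2) (HR : Frame q e f y) (hq : 3 ≤ q) (h5 : q ≠ 5) (h8 : q ≠ 8) :
    Gens F q := by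
  obtain ⟨μ, a, hμ, ha0, hS, hN, hgen⟩ := scalars hF hq h5 h8
  obtain ⟨m, hmdef⟩ : ∃ m, m = μ ^ q := ⟨_, rfl⟩
  obtain ⟨a', ha'def⟩ : ∃ a', a' = a ^ q := ⟨_, rfl⟩
  rw [← hmdef] at hS hN hgen
  rw [← ha'def] at hN
  have hm0 : m ≠ 0 := hmdef ▸ pow_ne_zero _ hμ
  have ha'0 : a' ≠ 0 := ha'def ▸ pow_ne_zero _ ha0
  have hmq : m ^ q = μ := by rw [hmdef, Herm.conj_conj hF]
  have ha'q : a' ^ q = a := by rw [ha'def, Herm.conj_conj hF]
  have hμq : μ ^ q = m := hmdef.symm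
  have haq : a ^ q = a' := ha'def.symm
  obtain ⟨S, hSdef⟩ : ∃ S, S = μ + m := ⟨_, rfl⟩
  rw [← hSdef] at hS hN
  have hSq : S ^ q = S := by rw [hSdef, Herm.conj_add hF, hμq, hmq, add_comm]
  have h2q : (2 : F) ^ q = 2 := by rw [show (2 : F) = 1 + 1 by norm_num, Herm.conj_add hF, one_pow]
  have h3q : (3 : F) ^ q = 3 := by rw [show (3 : F) = 2 + 1 by norm_num, Herm.conj_add hF, h2q, one_pow]
  have hsqq : ∀ x : F, (x ^ 2) ^ q = (x ^ q) ^ 2 := fun x => by rw [← pow_mul, ← pow_mul, mul_comm]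
  have hy : ∀ b : F, hm q (b • y) (b • y) = b * b ^ q := fun b => by
    rw [hm_smul_left', hm_smul_right, HR.one, mul_one]
  obtain ⟨c, hcdef⟩ : ∃ c, c = 3 * m + m ^ 2 / μ := ⟨_, rfl⟩
  obtain ⟨c', hc'def⟩ : ∃ c', c' = S ^ 2 / m := ⟨_, rfl⟩
  obtain ⟨k, hkdef⟩ : ∃ k, k = μ ^ 2 / m + 2 * μ := ⟨_, rfl⟩
  have hc : Cond q (a • y) c := by
    unfold Cond
    rw [hy, haq, hcdef, Herm.conj_add hF, mul_pow, h3q, hmq, div_pow, hsqq, hmq, hμq]
    field_simp
    subst hSdef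
    linear_combination hN
  have hc' : Cond q (a • y) c' := by
    unfold Cond
    rw [hy, haq, hc'def, div_pow, hsqq, hSq, hmq]
    field_simp
    subst hSdef
    linear_combination hN
  -- the three elements
  obtain ⟨n, hn⟩ := exists_elt hF HR (a0 := 0) (a1 := 1 / m) (a2 := 0) (b0 := μ) (b1 := 0) (b2 := 0)
    (d0 := 0) (d1 := 0) (d2 := -(m / μ))
    (by rw [det_fin_three]; simp; field_simp)
    (by simp [Herm.conj_zero hF]) (by simp [Herm.conj_zero hF])
    (by simp [Herm.conj_zero hF, Herm.conj_neg hF, div_pow, hmq, hμq]; field_simp)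
    (by simp [Herm.conj_zero hF, hμq]; field_simp)
    (by simp [Herm.conj_zero hF]) (by simp [Herm.conj_zero hF])
  obtain ⟨g, hg⟩ := exists_elt hF HR (a0 := -(m / S)) (a1 := -(1 / S)) (a2 := -(a * μ / S ^ 2))
    (b0 := 0) (b1 := -(S / μ)) (b2 := 0) (d0 := 0) (d1 := -(a' / S)) (d2 := μ / m)
    (by rw [det_fin_three]; simp; field_simp)
    (by simp only [Herm.conj_neg hF, div_pow, mul_pow, hsqq, hSq, hmq, hμq, haq, one_pow]
        field_simp
        subst hSdef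
        linear_combination hN)
    (by simp [Herm.conj_zero hF])
    (by simp [Herm.conj_zero hF, div_pow, hmq, hμq]; field_simp)
    (by simp [Herm.conj_zero hF, Herm.conj_neg hF, div_pow, hSq, hμq]; field_simp)
    (by simp only [Herm.conj_neg hF, Herm.conj_zero hF, div_pow, mul_pow, hsqq, hSq, hmq, hμq, haq, ha'q, one_pow]
        field_simp
        ring)
    (by simp [Herm.conj_zero hF])
  obtain ⟨b, hbdef⟩ : ∃ b, b = k / a' := ⟨_, rfl⟩
  obtain ⟨cb, hcb⟩ := exists_cond hF (b • y)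
  set u := U hF e (a • y) c with hudef
  set u' := U hF e (a • y) c' with hu'def
  set wb := U hF e (b • y) cb with hwbdef
  have hWa : InW q e f (a • y) := HR.inW.smul _
  have hWb : InW q e f (b • y) := HR.inW.smul _
  have hconj : wb * u * wb⁻¹ = u' := by
    rw [mul_inv_eq_iff_eq_mul, hudef, hu'def, hwbdef, U_mul hF HR.pair hWb hWa hcb hc,
      U_mul hF HR.pair hWa hWb hc' hcb, add_comm (a • y)]
    refine congrArg (U hF e (b • y + a • y)) ?_
    rw [hm_smul_left', hm_smul_right, hm_smul_left', hm_smul_right, HR.one, mul_one, mul_one, hbdef,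
      div_pow, hkdef, Herm.conj_add hF, mul_pow, h2q, hμq, div_pow, hsqq, hmq, hμq, haq, ha'q, hcdef, hc'def]
    field_simp
    subst hSdef
    ring
  have hv : g * u' = (u * n) * g := by
    apply frame_ext hF HR <;>
      rw [mat_mul, mat_mul, mat_mul, ← mulVec_mulVec, ← mulVec_mulVec, ← mulVec_mulVec, hu'def, hudef,
        U_V hF HR hc', hg, hg, hn, U_V hF HR hc, haq] <;>
      refine V_congr ?_ ?_ ?_ <;>
      simp only [mul_zero, zero_mul, add_zero, zero_add, mul_one, sub_zero, zero_sub] <;>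
      subst hcdef hc'def <;> (try field_simp) <;> subst hSdef <;>
      first | ring1 | linear_combination hN | linear_combination -hN
  refine ⟨u, g * wb, ⟨U_nilpotent hF HR.pair hWa hc, U_sq_ne hF HR ha0 hc⟩, ?_⟩
  have e1 : g * wb * u * (g * wb)⁻¹ = u * n := by
    rw [show g * wb * u * (g * wb)⁻¹ = g * (wb * u * wb⁻¹) * g⁻¹ by group, hconj, hv, mul_inv_cancel_right]
  rw [e1]
  have hu : u ∈ Subgroup.closure ({u, u * n} : Set (Cfsg.Agent.Lib.AutPSU.S 3 F q)) := Subgroup.subset_closure (Set.mem_insert _ _)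
  have hn' : n ∈ Subgroup.closure ({u, u * n} : Set (Cfsg.Agent.Lib.AutPSU.S 3 F q)) := by
    simpa using mul_mem (inv_mem hu) (Subgroup.subset_closure (Set.mem_insert_of_mem u rfl))
  have hne : mat (n * n) *ᵥ V e f y 1 0 0 = V e f y (μ / m) 0 0 := by
    rw [mat_mul, ← mulVec_mulVec, hn, hn]
    refine V_congr ?_ ?_ ?_ <;> ring
  have hny : mat (n * n) *ᵥ V e f y 0 0 1 = V e f y 0 0 ((m / μ) ^ 2) := by
    rw [mat_mul, ← mulVec_mulVec, hn, hn]
    refine V_congr ?_ ?_ ?_ <;> ring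
  refine top_of_move hF HR hq ha0 ⟨hWa, c, hc, hu⟩
    (fun b hb => mul_stable hF HR (mul_mem hn' hn') hne hny hb) (fun K hK => hgen K ?_) hn' (hn 1 0 0) ?_
  · convert hK using 1
    rw [div_pow _ _ q, hμq, hmq]
    ring
  · simp [hm0]

/-- `SU_3(q)`, `q ≥ 3`, is generated by two conjugate regular unipotents. -/
theorem gens (hF : Fintype.card F = q ^ 2) (hq : 3 ≤ q) : Gens F q := by
  obtain ⟨e, f, y, HR⟩ := exists_frame' hF
  by_cases h5 : q = 5
  · subst h5
    exact five hF HR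
  by_cases h8 : q = 8
  · subst h8
    exact eight hF HR
  exact general hF HR hq h5 h8

end Cfsg.Agent.Lib.Classical.SUThreeGen
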