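import Cfsg.Agent.Lib.Classical.UnitaryTwoGen.Scalars

/-!
Proper subrings of a field with `q ^ 2` elements, and elements lying in none of them.
-/

set_option autoImplicit false

namespace Cfsg.Agent.Lib.Classical.SUThreeGen

variable {F : Type*} [Field F] [Fintype F] {q : ℕ}

/-- A proper subring is a field with `r` elements, `r ^ j = q ^ 2` for some `j ≥ 2`. -/
theorem proper_subring (hF : Fintype.card F = q ^ 2) {K : Subring F} (hK : K ≠ ⊤) :
    ∃ r j, 2 ≤ r ∧ 2 ≤ j ∧ r ^ j = q ^ 2 ∧ ∀ x ∈ K, x ≠ 0 → x ^ (r - 1) = 1 := by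
  classical
  have hinv : ∀ x ∈ K, x⁻¹ ∈ K := fun x hx => by
    rcases eq_or_ne x 0 with rfl | hx0
    · simp
    have h2 : 2 ≤ Fintype.card F := Fintype.one_lt_card
    have := FiniteField.pow_card_sub_one_eq_one x hx0
    rw [inv_eq_of_mul_eq_one_left (show x ^ (Fintype.card F - 2) * x = 1 by
      rw [← pow_succ, show Fintype.card F - 2 + 1 = Fintype.card F - 1 by omega, this])]
    exact pow_mem hx _
  let L : Subfield F := { K with inv_mem' := hinv }
  have hLK : ∀ x, x ∈ L ↔ x ∈ K := fun _ => Iff.rfl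
  have hcard : Fintype.card F = Fintype.card L ^ Module.finrank L F := Module.card_eq_pow_finrank
  refine ⟨Fintype.card L, Module.finrank L F, Fintype.one_lt_card, ?_, by rw [← hcard, hF],
    fun x hx hx0 => ?_⟩
  · have h0 : 0 < Module.finrank L F := Module.finrank_pos
    by_contra h
    rw [show Module.finrank L F = 1 by omega, pow_one] at hcard
    have hb := (Fintype.bijective_iff_injective_and_card (Subtype.val : L → F)).2
      ⟨Subtype.val_injective, hcard.symm⟩
    exact hK (eq_top_iff.2 fun x _ => by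
      obtain ⟨l, rfl⟩ := hb.2 x
      exact (hLK _).1 l.2)
  · have := FiniteField.pow_card_sub_one_eq_one (⟨x, (hLK x).2 hx⟩ : L) (fun h => hx0 (congrArg Subtype.val h))
    simpa using congrArg Subtype.val this

/-- For `q ≠ 5, 8` the cube of `ω ^ (q - 1)` lies in no proper subring. -/
theorem cube_gen (hF : Fintype.card F = q ^ 2) {ω : Fˣ} (hω : orderOf ω = (q + 1) * (q - 1))
    (hq : 3 ≤ q) (h5 : q ≠ 5) (h8 : q ≠ 8) (K : Subring F)
    (h : (((ω ^ (q - 1)) ^ 3 : Fˣ) : F) ∈ K) : K = ⊤ := by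
  by_contra hK
  obtain ⟨r, j, hr, hj, hrj, hpow⟩ := proper_subring hF hK
  have h1 : ((ω ^ (q - 1)) ^ 3) ^ (r - 1) = 1 := Units.ext (by
    rw [Units.val_pow_eq_pow_val, hpow _ h (Units.ne_zero _), Units.val_one])
  rw [← pow_mul, ← pow_mul, ← orderOf_dvd_iff_pow_eq_one, hω, mul_comm (q + 1)] at h1
  replace h1 := Nat.dvd_of_mul_dvd_mul_left (by omega) h1
  rcases Nat.lt_trichotomy r q with hlt | heq | hgt
  · have hj3 : 3 ≤ j := by
      by_contra hcon
      rw [show j = 2 by omega] at hrj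
      exact absurd hrj (Nat.ne_of_lt (Nat.pow_lt_pow_left hlt (by norm_num)))
    have h3 : r ^ 3 ≤ q ^ 2 := hrj ▸ Nat.pow_le_pow_right (by omega) hj3
    have hle : q + 1 ≤ 3 * (r - 1) := Nat.le_of_dvd (by omega) h1
    have h10 : q ≤ 10 := by
      by_contra hcon
      have hc : (q + 4) ^ 3 ≤ 27 * q ^ 2 := by
        calc (q + 4) ^ 3 ≤ (3 * r) ^ 3 := Nat.pow_le_pow_left (by omega) 3
          _ = 27 * r ^ 3 := by ring
          _ ≤ 27 * q ^ 2 := by omega
      obtain ⟨w, rfl⟩ : ∃ w, q = w + 11 := ⟨q - 11, by omega⟩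
      ring_nf at hc
      nlinarith [Nat.zero_le (w ^ 3), Nat.zero_le (w ^ 2)]
    interval_cases q <;> interval_cases r <;> omega
  · rw [heq] at h1
    obtain ⟨z, hz⟩ : q + 1 ∣ 6 := by
      have h2 : q + 1 ∣ 3 * (q + 1) := Dvd.intro_left _ rfl
      have := Nat.dvd_sub h2 h1
      rwa [show 3 * (q + 1) - 3 * (q - 1) = 6 by omega] at this
    have : q ≤ 5 := by have := Nat.le_of_dvd (by norm_num) (Dvd.intro z hz.symm); omega
    interval_cases q <;> omega
  · have : q ^ 2 < r ^ 2 := Nat.pow_lt_pow_left hgt (by norm_num)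
    have := hrj ▸ (Nat.pow_le_pow_right (show 0 < r by omega) hj : r ^ 2 ≤ r ^ j)
    omega

/-- An element of the field with 25 elements outside the prime field generates it. -/
theorem five_gen (hF : Fintype.card F = 5 ^ 2) {κ : F} (h0 : κ ≠ 0) (h4 : κ ^ 4 ≠ 1) (K : Subring F)
    (h : κ ∈ K) : K = ⊤ := by
  by_contra hK
  obtain ⟨r, j, hr, hj, hrj, hpow⟩ := proper_subring hF hK
  have hd : r ∣ 5 ^ 2 := hrj ▸ dvd_pow_self r (by omega)
  have hle : r ^ 2 ≤ 5 ^ 2 := hrj ▸ Nat.pow_le_pow_right (by omega) hj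
  have : r ≤ 5 := by nlinarith
  interval_cases r <;> norm_num at hd
  exact h4 (hpow κ h h0)

/-- An element of the field with 64 elements of order dividing neither 3 nor 7 generates it. -/
theorem eight_gen (hF : Fintype.card F = 8 ^ 2) {k : F} (h0 : k ≠ 0) (h3 : k ^ 3 ≠ 1) (h7 : k ^ 7 ≠ 1)
    (K : Subring F) (h : k ∈ K) : K = ⊤ := by
  by_contra hK
  obtain ⟨r, j, hr, hj, hrj, hpow⟩ := proper_subring hF hK
  have hd : r ∣ 8 ^ 2 := hrj ▸ dvd_pow_self r (by omega)
  have hle : r ^ 2 ≤ 8 ^ 2 := hrj ▸ Nat.pow_le_pow_right (by omega) hj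
  have : r ≤ 8 := by nlinarith
  have hk := hpow k h h0
  interval_cases r <;> norm_num at hd
  all_goals norm_num at hk
  all_goals first | exact h3 hk | exact h7 hk | exact h3 (by rw [hk]; norm_num)

end Cfsg.Agent.Lib.Classical.SUThreeGen
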