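import Cfsg.Agent.Lib.Classical.SUThreeGen.Basic
import Cfsg.Agent.Lib.Classical.SUThreeGen.Subring

/-!
A root element and its conjugate by the element exchanging a hyperbolic pair, followed through
words for their action on the frame.
-/

set_option autoImplicit false

namespace Cfsg.Agent.Lib.Classical.SUThreeGen

open Matrix Cfsg.Agent.Lib.AutPSU Cfsg.Agent.Lib.Forms UnitaryTwoGen

universe u

variable {F : Type u} [Field F] {q : ℕ} {e f y : Fin 3 → F}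

/-- Two conjugate regular unipotents generate. -/
def Gens (F : Type u) [Field F] (q : ℕ) : Prop :=
  ∃ u g : S 3 F q, (IsNilpotent (mat u - 1) ∧ (mat u - 1) ^ 2 ≠ 0) ∧
    Subgroup.closure ({u, g * u * g⁻¹} : Set (S 3 F q)) = ⊤

/-- Some element of `H` maps `e` and `y` to the vectors with the given coordinates. -/
def Reach (H : Subgroup (S 3 F q)) (e f y : Fin 3 → F) (p0 p1 p2 s0 s1 s2 : F) : Prop :=
  ∃ w ∈ H, mat w *ᵥ V e f y 1 0 0 = V e f y p0 p1 p2 ∧ mat w *ᵥ V e f y 0 0 1 = V e f y s0 s1 s2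

theorem Reach.start (H : Subgroup (S 3 F q)) (e f y : Fin 3 → F) : Reach H e f y 1 0 0 0 0 1 :=
  ⟨1, one_mem H, by rw [mat_one, one_mulVec], by rw [mat_one, one_mulVec]⟩

theorem Reach.stepU {H : Subgroup (S 3 F q)} {p0 p1 p2 s0 s1 s2 a0 a2 b0 b2 c : F} {u : S 3 F q}
    (hr : Reach H e f y p0 p1 p2 s0 s1 s2)
    (hu : u ∈ H ∧ ∀ x0 x1 x2, mat u *ᵥ V e f y x0 x1 x2 = V e f y (x0 + c * x1 - x2) x1 (x2 + x1))
    (h0 : p0 + c * p1 - p2 = a0) (h2 : p2 + p1 = a2) (k0 : s0 + c * s1 - s2 = b0) (k2 : s2 + s1 = b2) :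
    Reach H e f y a0 p1 a2 b0 s1 b2 := by
  obtain ⟨w, hw, e1, e2⟩ := hr
  exact ⟨u * w, mul_mem hu.1 hw, by rw [mat_mul, ← mulVec_mulVec, e1, hu.2, h0, h2],
    by rw [mat_mul, ← mulVec_mulVec, e2, hu.2, k0, k2]⟩

theorem Reach.stepV {H : Subgroup (S 3 F q)} {p0 p1 p2 s0 s1 s2 a1 a2 b1 b2 i j : F} {v : S 3 F q}
    (hr : Reach H e f y p0 p1 p2 s0 s1 s2)
    (hv : v ∈ H ∧ ∀ x0 x1 x2, mat v *ᵥ V e f y x0 x1 x2 = V e f y x0 (x1 + j * x0 + i * x2) (x2 + i * x0))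
    (h1 : p1 + j * p0 + i * p2 = a1) (h2 : p2 + i * p0 = a2) (k1 : s1 + j * s0 + i * s2 = b1)
    (k2 : s2 + i * s0 = b2) : Reach H e f y p0 a1 a2 s0 b1 b2 := by
  obtain ⟨w, hw, e1, e2⟩ := hr
  exact ⟨v * w, mul_mem hv.1 hw, by rw [mat_mul, ← mulVec_mulVec, e1, hv.2, h1, h2],
    by rw [mat_mul, ← mulVec_mulVec, e2, hv.2, k1, k2]⟩

variable [Fintype F] (hF : Fintype.card F = q ^ 2) (HR : Frame q e f y)
include hF HR

/-- The root element with unit W-part and its conjugate generate, given a suitable word. -/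
theorem gens_of_word (hq : 3 ≤ q) {κ c i j : F} (hκ : Skew q κ) (hi : κ * i = 1) (hj : j = -(c * i * i))
    (hc : c + c ^ q = -1)
    (hword : ∀ (u v : S 3 F q) (H : Subgroup (S 3 F q)),
      (u ∈ H ∧ ∀ x0 x1 x2, mat u *ᵥ V e f y x0 x1 x2 = V e f y (x0 + c * x1 - x2) x1 (x2 + x1)) →
      (v ∈ H ∧ ∀ x0 x1 x2, mat v *ᵥ V e f y x0 x1 x2 = V e f y x0 (x1 + j * x0 + i * x2) (x2 + i * x0)) →
      ∃ t σ ρ, Reach H e f y t 0 0 σ 0 ρ ∧ ∀ K : Subring F, t ^ q * ρ ∈ K → K = ⊤) :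
    Gens F q := by
  have hκ0 : κ ≠ 0 := left_ne_zero_of_mul_eq_one hi
  have hic : i = κ⁻¹ := eq_inv_of_mul_eq_one_right hi
  have hd : Cond q ((1 : F) • y) c := by
    rw [Cond, hm_smul_left', hm_smul_right, HR.one, one_pow, one_mul, one_mul, hc]
  have hc0 : c ≠ 0 := fun h => by
    rw [h, Herm.conj_zero hF, add_zero] at hc
    exact neg_ne_zero.2 one_ne_zero hc.symm
  set u := U hF e ((1 : F) • y) c
  set g := E hF e f κ
  have huV : ∀ x0 x1 x2, mat u *ᵥ V e f y x0 x1 x2 = V e f y (x0 + c * x1 - x2) x1 (x2 + x1) :=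
    fun x0 x1 x2 => by rw [U_V hF HR hd, one_pow, one_mul, one_mul]
  have hgV : ∀ x0 x1 x2, mat g *ᵥ V e f y x0 x1 x2 = V e f y (κ * x1) (-i * x0) x2 := fun x0 x1 x2 => by
    rw [V, mulVec_add, mulVec_add, mulVec_smul, mulVec_smul, mulVec_smul,
      E_apply_e hF HR.pair hκ hκ0, E_apply_f hF HR.pair hκ hκ0, E_apply_w hF HR.pair hκ hκ0 HR.inW,
      ← hic, V]
    module
  have hvV : ∀ x0 x1 x2, mat (g * u * g⁻¹) *ᵥ V e f y x0 x1 x2 =
      V e f y x0 (x1 + j * x0 + i * x2) (x2 + i * x0) := fun x0 x1 x2 => by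
    have h := congrArg (fun z => mat (g * u) *ᵥ (mat g⁻¹ *ᵥ z)) (hgV (-(κ * x1)) (i * x0) x2)
    simp only [mulVec_inv_cancel] at h
    have e0 : V e f y (κ * (i * x0)) (-i * -(κ * x1)) x2 = V e f y x0 x1 x2 := by
      rw [show κ * (i * x0) = x0 by rw [← mul_assoc, hi, one_mul],
        show -i * -(κ * x1) = x1 by linear_combination x1 * hi]
    rw [e0, mulVec_mulVec, ← mat_mul] at h
    rw [← h, mat_mul, ← mulVec_mulVec, huV, hgV]
    congr 1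
    · linear_combination x0 * hi
    · rw [hj]; linear_combination x1 * hi
  have hH1 : u ∈ Subgroup.closure ({u, g * u * g⁻¹} : Set (S 3 F q)) :=
    Subgroup.subset_closure (Set.mem_insert _ _)
  have hH2 : g * u * g⁻¹ ∈ Subgroup.closure ({u, g * u * g⁻¹} : Set (S 3 F q)) :=
    Subgroup.subset_closure (Set.mem_insert_of_mem _ rfl)
  refine ⟨u, g, ⟨U_nilpotent hF HR.pair (HR.inW.smul _) hd, U_sq_ne hF HR one_ne_zero hd⟩, ?_⟩
  obtain ⟨t, σ, ρ, ⟨w, hw, hwe, hwy⟩, hgen⟩ := hword u (g * u * g⁻¹) _ ⟨hH1, huV⟩ ⟨hH2, hvV⟩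
  refine top_of_move hF HR hq one_ne_zero ⟨HR.inW.smul _, c, hd, hH1⟩
    (fun b hb => mul_stable hF HR hw hwe hwy hb) hgen hH2 (hvV 1 0 0) ?_
  rw [hj]
  simp [hc0, hic, hκ0]

end Cfsg.Agent.Lib.Classical.SUThreeGen
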