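import Cfsg.Agent.Lib.Classical.SUThreeGen.Setup

/-!
The fields with 25 and 64 elements, where the torus element `(g u)²` is too small.
-/

set_option autoImplicit false

namespace Cfsg.Agent.Lib.Classical.SUThreeGen

open Cfsg.Agent.Lib.AutPSU Cfsg.Agent.Lib.Forms UnitaryTwoGen

universe u

variable {F : Type u} [Field F] [Fintype F] {e f y : Fin 3 → F}

theorem five_scalar (hF : Fintype.card F = 5 ^ 2) :
    (5 : F) = 0 ∧ ∃ κ : F, κ ^ 5 = -κ ∧ κ ^ 2 = 3 := by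
  have hp : (5 : F) = 0 := by
    have h : (Fintype.card F : F) = 0 := Nat.cast_card_eq_zero F
    rw [hF] at h
    have h2 : (5 : F) ^ 2 = 0 := by push_cast at h; linear_combination h
    exact pow_eq_zero_iff (by norm_num) |>.1 h2
  obtain ⟨κ, hκ0, hκ⟩ := exists_skew_ne_zero hF
  unfold Skew at hκ
  have h4 : κ ^ 4 = -1 := mul_left_cancel₀ hκ0 (by linear_combination hκ)
  have h : (κ ^ 2 - 3) * (κ ^ 2 + 3) = 0 := by linear_combination h4 + (-2) * hp
  refine ⟨hp, ?_⟩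
  rcases mul_eq_zero.1 h with h | h
  · exact ⟨κ, by linear_combination hκ, by linear_combination h⟩
  · exact ⟨2 * κ, by linear_combination 32 * hκ - (6 * κ) * hp, by linear_combination 4 * h - 3 * hp⟩

theorem five (hF : Fintype.card F = 5 ^ 2) (HR : Frame 5 e f y) : Gens F 5 := by
  obtain ⟨hp, κ, hκ, hK⟩ := five_scalar hF
  have hcast : ∀ m : ℕ, ((m : F)) ^ 5 = m := fun m => by
    induction m with
    | zero => simp
    | succ m ih => rw [Nat.cast_succ, Herm.conj_add hF, ih, one_pow]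
  have hc2 : (2 : F) ^ 5 = 2 := by simpa using hcast 2
  have hc3 : (3 : F) ^ 5 = 3 := by simpa using hcast 3
  refine gens_of_word hF HR (by norm_num) (κ := κ) (c := 2 + 3 * κ) (i := 2 * κ) (j := 1 + 4 * κ)
    (by unfold Skew; linear_combination hκ) (by linear_combination 2 * hK + hp)
    (by linear_combination (8 + 12 * κ) * hK + (5 + 8 * κ) * hp)
    (by rw [Herm.conj_add hF, mul_pow, hc2, hc3]; linear_combination 3 * hκ + hp)
    fun u v H hu hv => ?_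
  have r0 : Reach H e f y 1 0 0 0 0 1 := Reach.start H e f y
  have r1 : Reach H e f y (1) (1 + 4 * κ) (2 * κ) (0) (2 * κ) (1) :=
    r0.stepV hv
      (by ring)
      (by ring)
      (by ring)
      (by ring)
  have r2 : Reach H e f y (4 + 4 * κ) (1 + 4 * κ) (1 + κ) (2 + 4 * κ) (2 * κ) (1 + 2 * κ) :=
    r1.stepU hu
      (by linear_combination (12) * hK + (7 + κ) * hp)
      (by linear_combination (κ) * hp)
      (by linear_combination (6) * hK + (3) * hp)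
      (by ring)
  have r3 : Reach H e f y (1 + 4 * κ) (1 + 4 * κ) (2) (4 + κ) (2 * κ) (1 + 4 * κ) :=
    r2.stepU hu
      (by linear_combination (12) * hK + (8 + 2 * κ) * hp)
      (by linear_combination (κ) * hp)
      (by linear_combination (6) * hK + (3 + κ) * hp)
      (by ring)
  have r4 : Reach H e f y (2) (1 + 4 * κ) (3 + 4 * κ) (1 + κ) (2 * κ) (1 + κ) :=
    r3.stepU hu
      (by linear_combination (12) * hK + (7 + 3 * κ) * hp)
      (by ring)
      (by linear_combination (6) * hK + (4) * hp)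
      (by linear_combination (κ) * hp)
  have r5 : Reach H e f y (2 + 2 * κ) (1 + 4 * κ) (4 + 3 * κ) (3 + 4 * κ) (2 * κ) (1 + 3 * κ) :=
    r4.stepU hu
      (by linear_combination (12) * hK + (7 + κ) * hp)
      (by linear_combination (κ) * hp)
      (by linear_combination (6) * hK + (3) * hp)
      (by ring)
  have r6 : Reach H e f y (2 + 2 * κ) (2 * κ) (1 + 2 * κ) (3 + 4 * κ) (4) (4 * κ) :=
    r5.stepV hv
      (by linear_combination (14) * hK + (9 + 4 * κ) * hp)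
      (by linear_combination (4) * hK + (3 + κ) * hp)
      (by linear_combination (22) * hK + (13 + 4 * κ) * hp)
      (by linear_combination (8) * hK + (5 + κ) * hp)
  have r7 : Reach H e f y (2 + 2 * κ) (3 + 4 * κ) (3 + κ) (3 + 4 * κ) (4 + κ) (4) :=
    r6.stepV hv
      (by linear_combination (12) * hK + (7 + 2 * κ) * hp)
      (by linear_combination (4) * hK + (2 + κ) * hp)
      (by linear_combination (24) * hK + (15 + 3 * κ) * hp)
      (by linear_combination (8) * hK + (4 + 2 * κ) * hp)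
  have r8 : Reach H e f y (2 + 2 * κ) (0) (0) (3 + 4 * κ) (0) (3 + κ) :=
    r7.stepV hv
      (by linear_combination (10) * hK + (7 + 4 * κ) * hp)
      (by linear_combination (4) * hK + (3 + κ) * hp)
      (by linear_combination (16) * hK + (11 + 5 * κ) * hp)
      (by linear_combination (8) * hK + (5 + κ) * hp)
  refine ⟨_, _, _, r8, fun K h => five_gen hF (κ := κ) ?_ ?_ K ?_⟩
  · intro h0
    rw [h0] at hK
    exact one_ne_zero (show (1 : F) = 0 by linear_combination -hp - (2 : F) * hK)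
  · intro h4
    exact one_ne_zero (show (1 : F) = 0 by linear_combination (-2) * (κ ^ 2 + 3) * hK + (2 : F) * h4 - 3 * hp)
  · convert h using 1
    rw [Herm.conj_add hF, mul_pow, hc2]
    linear_combination (-2 * (3 + κ)) * hκ + 2 * hK + κ * hp

theorem eight_scalar (hF : Fintype.card F = 8 ^ 2) :
    (2 : F) = 0 ∧ ∃ c κ : F, c ^ 2 = c + 1 ∧ κ ^ 3 = κ ^ 2 + 1 := by
  have hp : (2 : F) = 0 := by
    have h : (Fintype.card F : F) = 0 := Nat.cast_card_eq_zero F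
    rw [hF] at h
    have h6 : (2 : F) ^ 6 = 0 := by push_cast at h; linear_combination h
    exact pow_eq_zero_iff (by norm_num) |>.1 h6
  obtain ⟨ω, hω, -⟩ := exists_prim hF
  norm_num at hω
  have hω63 : ω ^ 63 = 1 := hω ▸ pow_orderOf_eq_one ω
  have hne : ∀ m : ℕ, 0 < m → m < 63 → ((ω : F)) ^ m ≠ 1 := fun m h0 h1 h =>
    pow_ne_one_of_lt_orderOf h0.ne' (hω.symm ▸ h1)
      (Units.ext (by rw [Units.val_pow_eq_pow_val, h, Units.val_one]))
  have h63 : (ω : F) ^ 63 = 1 := by rw [← Units.val_pow_eq_pow_val, hω63, Units.val_one]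
  set z := (ω : F) ^ 9 with hzdef
  have hz : z ^ 7 = 1 := by rw [hzdef, ← pow_mul, h63]
  have hz1 : z - 1 ≠ 0 := sub_ne_zero.2 (hne 9 (by norm_num) (by norm_num))
  have hC : ((ω : F) ^ 21) ^ 2 = (ω : F) ^ 21 + 1 := by
    have h : ((ω : F) ^ 21 - 1) * (((ω : F) ^ 21) ^ 2 + (ω : F) ^ 21 + 1) = 0 := by
      linear_combination h63
    have := (mul_eq_zero.1 h).resolve_left (sub_ne_zero.2 (hne 21 (by norm_num) (by norm_num)))
    linear_combination this - ((ω : F) ^ 21 + 1) * hp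
  have hz' : (z ^ 3 + z + 1) * (z ^ 3 + z ^ 2 + 1) = 0 := by
    have h : (z - 1) * (z ^ 6 + z ^ 5 + z ^ 4 + z ^ 3 + z ^ 2 + z + 1) = 0 := by linear_combination hz
    linear_combination (mul_eq_zero.1 h).resolve_left hz1 + z ^ 3 * hp
  refine ⟨hp, (ω : F) ^ 21, ?_⟩
  rcases mul_eq_zero.1 hz' with h | h
  · refine ⟨z ^ 6, hC, ?_⟩
    linear_combination (z ^ 4) * h + ((z ^ 11 + z ^ 4) - z ^ 5 - 1) * hz + (-(z ^ 5) - 1) * hp
  · exact ⟨z, hC, by linear_combination h - (z ^ 2 + 1) * hp⟩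

theorem eight (hF : Fintype.card F = 8 ^ 2) (HR : Frame 8 e f y) : Gens F 8 := by
  obtain ⟨hp, c, κ, hc, hK⟩ := eight_scalar hF
  haveI : CharP F 2 := CharTwo.of_one_ne_zero_of_two_eq_zero one_ne_zero hp
  have hsq : ∀ x : F, x ^ 8 = ((x ^ 2) ^ 2) ^ 2 := fun x => by ring
  have hκ : κ ^ 8 = κ := by
    linear_combination (κ ^ 5 + κ ^ 4 + κ ^ 3 + 2 * κ ^ 2 + 3 * κ + 4) * hK + (3 * κ ^ 2 + κ + 2) * hp
  have hc8 : c ^ 8 = c + 1 := by
    linear_combination (c ^ 6 + c ^ 5 + 2 * c ^ 4 + 3 * c ^ 3 + 5 * c ^ 2 + 8 * c + 13) * hc + (10 * c + 6) * hp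
  refine gens_of_word hF HR (by norm_num) (κ := κ) (c := c) (i := κ + κ ^ 2) (j := c + c * κ)
    (by unfold Skew; linear_combination hκ + κ * hp) (by linear_combination hK + (κ ^ 2) * hp)
    ?_ (by linear_combination hc8 + (c + 1) * hp) fun u v H hu hv => ?_
  · linear_combination (c * (κ + 3)) * hK + (c * (2 * κ ^ 2 + κ + 2)) * hp
  have r0 : Reach H e f y 1 0 0 0 0 1 := Reach.start H e f y
  have r1 : Reach H e f y (1) (c + c * κ) (κ + κ ^ 2) (0) (κ + κ ^ 2) (1) :=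
    r0.stepV hv
      (by ring)
      (by ring)
      (by ring)
      (by ring)
  have r2 : Reach H e f y (κ ^ 2 + c + c * κ) (c + c * κ) (κ + κ ^ 2 + c + c * κ) (1 + c * κ + c * κ ^ 2) (κ + κ ^ 2) (1 + κ + κ ^ 2) :=
    r1.stepU hu
      (by linear_combination (1 + κ) * hc + (1 - κ ^ 2) * hp)
      (by ring)
      (by linear_combination (-1) * hp)
      (by ring)
  have r3 : Reach H e f y (1 + c + c * κ) (c + c * κ) (κ + κ ^ 2) (κ + κ ^ 2) (κ + κ ^ 2) (1) :=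
    r2.stepU hu
      (by linear_combination (1 + κ) * hc)
      (by linear_combination (c + c * κ) * hp)
      (by linear_combination (-κ - κ ^ 2 + c * κ + c * κ ^ 2) * hp)
      (by linear_combination (κ + κ ^ 2) * hp)
  have r4 : Reach H e f y (1 + c + c * κ) (κ + κ ^ 2 + c + c * κ ^ 2) (c + c * κ + c * κ ^ 2) (κ + κ ^ 2) (c + c * κ + c * κ ^ 2) (κ) :=
    r3.stepV hv
      (by linear_combination (1 + 2 * κ + κ ^ 2) * hc + (3 + κ) * hK + (2 + κ + 2 * κ ^ 2 + c + 2 * c * κ) * hp)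
      (by linear_combination (c) * hK + (κ + κ ^ 2 + c * κ ^ 2) * hp)
      (by linear_combination (c) * hK + (κ + κ ^ 2 + c * κ ^ 2) * hp)
      (by linear_combination (3 + κ) * hK + (2 + 2 * κ ^ 2) * hp)
  have r5 : Reach H e f y (κ ^ 2 + c + c * κ + c * κ ^ 2) (κ + κ ^ 2 + c + c * κ ^ 2) (κ + κ ^ 2 + c * κ) (1 + κ + c + c * κ + c * κ ^ 2) (c + c * κ + c * κ ^ 2) (κ + c + c * κ + c * κ ^ 2) :=
    r4.stepU hu
      (by linear_combination (1 + κ ^ 2) * hc + (1) * hp)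
      (by linear_combination (c + c * κ ^ 2) * hp)
      (by linear_combination (1 + κ + κ ^ 2) * hc + (κ ^ 2) * hp)
      (by ring)
  have r6 : Reach H e f y (1 + κ + κ ^ 2 + c * κ + c * κ ^ 2) (κ + κ ^ 2 + c + c * κ ^ 2) (c + c * κ + c * κ ^ 2) (κ + κ ^ 2 + c + c * κ + c * κ ^ 2) (c + c * κ + c * κ ^ 2) (κ) :=
    r5.stepU hu
      (by linear_combination (1 + κ ^ 2) * hc + (-κ + c + c * κ ^ 2) * hp)
      (by linear_combination (κ + κ ^ 2) * hp)
      (by linear_combination (1 + κ + κ ^ 2) * hc + (1) * hp)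
      (by linear_combination (c + c * κ + c * κ ^ 2) * hp)
  have r7 : Reach H e f y (1 + κ + κ ^ 2 + c * κ + c * κ ^ 2) (1 + c + c * κ) (1 + κ ^ 2 + c * κ ^ 2) (κ + κ ^ 2 + c + c * κ + c * κ ^ 2) (1 + κ ^ 2 + c * κ ^ 2) (1 + c + c * κ ^ 2) :=
    r6.stepV hv
      (by linear_combination (κ + 2 * κ ^ 2 + κ ^ 3) * hc + (1 + 5 * c + c * κ) * hK + (κ + 2 * κ ^ 2 + 3 * c + 2 * c * κ + 6 * c * κ ^ 2) * hp)
      (by linear_combination (3 + κ + 3 * c + c * κ) * hK + (1 + κ + 2 * κ ^ 2 + 2 * c + c * κ + 2 * c * κ ^ 2) * hp)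
      (by linear_combination (1 + 2 * κ + 2 * κ ^ 2 + κ ^ 3) * hc + (2 + 2 * c) * hK + (1 + κ + 2 * κ ^ 2 + 2 * c + 2 * c * κ + 3 * c * κ ^ 2) * hp)
      (by linear_combination (3 + κ + 3 * c + c * κ) * hK + (1 + κ + 2 * κ ^ 2 + c + c * κ + 2 * c * κ ^ 2) * hp)
  have r8 : Reach H e f y (1 + κ + κ ^ 2 + c * κ + c * κ ^ 2) (κ + c * κ) (c + c * κ + c * κ ^ 2) (κ + κ ^ 2 + c + c * κ + c * κ ^ 2) (1 + κ + κ ^ 2 + c + c * κ) (κ) :=
    r7.stepV hv
      (by linear_combination (κ + 2 * κ ^ 2 + κ ^ 3) * hc + (3 + κ + 4 * c + c * κ) * hK + (2 + κ + 3 * κ ^ 2 + 3 * c + 2 * c * κ + 4 * c * κ ^ 2) * hp)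
      (by linear_combination (3 + κ + 3 * c + c * κ) * hK + (2 + κ + 3 * κ ^ 2 + c + 2 * c * κ ^ 2) * hp)
      (by linear_combination (1 + 2 * κ + 2 * κ ^ 2 + κ ^ 3) * hc + (1 + 4 * c + c * κ) * hK + (1 + κ + 2 * κ ^ 2 + 2 * c + 2 * c * κ + 5 * c * κ ^ 2) * hp)
      (by linear_combination (3 + κ + 3 * c + c * κ) * hK + (2 + 2 * κ ^ 2 + 2 * c + c * κ + 3 * c * κ ^ 2) * hp)
  have r9 : Reach H e f y (1 + κ + κ ^ 2 + c * κ + c * κ ^ 2) (1 + κ ^ 2 + c * κ ^ 2) (1 + κ ^ 2 + c * κ ^ 2) (κ + κ ^ 2 + c + c * κ + c * κ ^ 2) (κ) (1 + c + c * κ ^ 2) :=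
    r8.stepV hv
      (by linear_combination (κ + 2 * κ ^ 2 + κ ^ 3) * hc + (1 + 5 * c + c * κ) * hK + (κ + κ ^ 2 + 3 * c + 3 * c * κ + 5 * c * κ ^ 2) * hp)
      (by linear_combination (3 + κ + 3 * c + c * κ) * hK + (1 + κ + 2 * κ ^ 2 + 2 * c + c * κ + 2 * c * κ ^ 2) * hp)
      (by linear_combination (1 + 2 * κ + 2 * κ ^ 2 + κ ^ 3) * hc + (2 + 2 * c) * hK + (2 + κ + 3 * κ ^ 2 + 2 * c + 2 * c * κ + 3 * c * κ ^ 2) * hp)
      (by linear_combination (3 + κ + 3 * c + c * κ) * hK + (1 + κ + 2 * κ ^ 2 + c + c * κ + 2 * c * κ ^ 2) * hp)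
  have r10 : Reach H e f y (κ + κ ^ 2 + c + c * κ) (1 + κ ^ 2 + c * κ ^ 2) (0) (1 + κ + κ ^ 2) (κ) (1 + κ + c + c * κ ^ 2) :=
    r9.stepU hu
      (by linear_combination (κ ^ 2) * hc + (c * κ ^ 2) * hp)
      (by linear_combination (1 + κ ^ 2 + c * κ ^ 2) * hp)
      (by linear_combination (-1 + c * κ) * hp)
      (by ring)
  have r11 : Reach H e f y (κ + c * κ) (1 + κ ^ 2 + c * κ ^ 2) (1 + κ ^ 2 + c * κ ^ 2) (κ ^ 2 + c + c * κ + c * κ ^ 2) (κ) (1 + c + c * κ ^ 2) :=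
    r10.stepU hu
      (by linear_combination (κ ^ 2) * hc + (κ ^ 2 + c + c * κ ^ 2) * hp)
      (by ring)
      (by linear_combination (-c - c * κ ^ 2) * hp)
      (by linear_combination (κ) * hp)
  have r12 : Reach H e f y (1 + κ + c + c * κ + c * κ ^ 2) (1 + κ ^ 2 + c * κ ^ 2) (0) (1 + κ ^ 2) (κ) (1 + κ + c + c * κ ^ 2) :=
    r11.stepU hu
      (by linear_combination (κ ^ 2) * hc + (-1) * hp)
      (by linear_combination (1 + κ ^ 2 + c * κ ^ 2) * hp)
      (by linear_combination (-1 + c * κ) * hp)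
      (by ring)
  have r13 : Reach H e f y (1 + κ + c + c * κ + c * κ ^ 2) (1 + c + c * κ ^ 2) (1 + κ + κ ^ 2 + c + c * κ ^ 2) (1 + κ ^ 2) (1 + κ ^ 2 + c * κ + c * κ ^ 2) (1 + κ + κ ^ 2 + c + c * κ ^ 2) :=
    r12.stepV hv
      (by linear_combination (1 + 2 * κ + 2 * κ ^ 2 + κ ^ 3) * hc + (1 + c) * hK + (1 + κ + 2 * κ ^ 2 + c + 2 * c * κ + 2 * c * κ ^ 2) * hp)
      (by linear_combination (1 + 3 * c + c * κ) * hK + (κ ^ 2 + c + c * κ + 2 * c * κ ^ 2) * hp)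
      (by linear_combination (1 + 3 * c + c * κ) * hK + (κ + κ ^ 2 + 2 * c + c * κ + 2 * c * κ ^ 2) * hp)
      (by linear_combination (2 + κ) * hK + (1 + κ + κ ^ 2) * hp)
  have r14 : Reach H e f y (1 + κ + c + c * κ + c * κ ^ 2) (0) (0) (1 + κ ^ 2) (0) (1 + κ + c + c * κ ^ 2) :=
    r13.stepV hv
      (by linear_combination (1 + 2 * κ + 2 * κ ^ 2 + κ ^ 3) * hc + (4 + κ + 3 * c + c * κ) * hK + (3 + 2 * κ + 4 * κ ^ 2 + 3 * c + 3 * c * κ + 4 * c * κ ^ 2) * hp)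
      (by linear_combination (1 + 3 * c + c * κ) * hK + (1 + κ + 2 * κ ^ 2 + 2 * c + c * κ + 3 * c * κ ^ 2) * hp)
      (by linear_combination (3 + κ + 3 * c + c * κ) * hK + (2 + κ + 3 * κ ^ 2 + 2 * c + 2 * c * κ + 3 * c * κ ^ 2) * hp)
      (by linear_combination (2 + κ) * hK + (1 + κ + 2 * κ ^ 2) * hp)
  refine ⟨_, _, _, r14, fun K h => ?_⟩
  have hk : (1 + κ + c + c * κ + c * κ ^ 2) ^ 8 * (1 + κ + c + c * κ ^ 2) = c * (κ + κ ^ 2) := by
    simp only [Herm.conj_add hF, mul_pow, one_pow, hc8, hκ, ← pow_mul, pow_mul' κ 2 8]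
    grind
  rw [hk] at h
  have hk0 : c * (κ + κ ^ 2) ≠ 0 := fun h0 => one_ne_zero (show (1 : F) = 0 by grind)
  exact eight_gen hF hk0 (fun h3 => one_ne_zero (show (1 : F) = 0 by grind))
    (fun h7 => one_ne_zero (show (1 : F) = 0 by grind)) K h

end Cfsg.Agent.Lib.Classical.SUThreeGen
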